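import Groth.Agent.Dual.H305.SuppInd
import Groth.Agent.S1002

/-!
# Support of `a(Q)` when `Rf_*` preserves perfect objects
-/

set_option autoImplicit false

universe u

open CategoryTheory CategoryTheory.Limits AlgebraicGeometry Pretriangulated

attribute [local instance] HasDerivedCategory.standard

namespace Groth.Agent.Dual.H305.Supp

open LoccohB LoccohB.Tel LoccohB.SecAct LoccohB.RightAdj LoccohB.RightAdj2 CohtopA.BrownW
  PerfA.Restrict LoccohB.DQCohTri LoccohB.VanOn LoccohB.LocAdj LoccohB.AffSupp Dual.H305.SuppInd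

variable {X Y : Scheme.{u}}

/-- `Rf_*` sends perfect objects to perfect objects. -/
def PushPerf (f : X ⟶ Y) : Prop :=
  ∀ (_ : DCoh.HasRpush f) (K : DCoh.D X), DCoh.IsPerfect K → DCoh.IsPerfect ((DCoh.Rpush f).obj K)

/-- `Rf_*` sends perfect objects to pseudo-coherent objects. -/
def PushPC (f : X ⟶ Y) : Prop :=
  ∀ (_ : DCoh.HasRpush f) (K : DCoh.D X), DCoh.IsPerfect K →
    ∀ m : ℤ, DCoh.IsPseudoCoherentD m ((DCoh.Rpush f).obj K)

/-- The key step: it suffices that maps `Rf_* P → Q`, `P` perfect, are killed by powers of `g`. -/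
theorem isZero_restrictD_basicOpen_of_pow [CompactSpace X] [QuasiSeparatedSpace X]
    (f : X ⟶ Y) [DCoh.HasRpush f] (h : Pres f)
    (a : DCoh.DQCoh Y ⥤ DCoh.DQCoh X) (adj : Rq f h ⊣ a) (Q : DCoh.DQCoh Y) (g : Γ(Y, ⊤))
    (hg : ∀ (P : DCoh.DQCoh X) (_ : DCoh.IsPerfect P.obj) (ψ : (Rq f h).obj P ⟶ Q),
      ∃ m : ℕ, ψ ≫ tpow (actQ g Q) m = 0) :
    IsZero ((restrictD (X.basicOpen (f.appTop g)).ι).obj (a.obj Q).obj) := by
  obtain ⟨P, hP, hP', hP''⟩ := exists_compact_generator X
  refine isZero_restrictD_of_telZero _ _ ((telZero_actQ_iff _ _).1 ?_)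
  refine telZero_of_generates (fun _ : PUnit.{u + 1} => P) (fun _ => hP') hP'' _ (fun _ n φ => ?_)
  set F := Rq f h with hF
  have hact : ∀ K : DCoh.DQCoh X, F.map (actQ (f.appTop g) K) = actQ g (F.obj K) := by
    intro K
    ext
    exact Rpush_map_actD f g K.obj
  obtain ⟨m, hm⟩ := hg (P⟦n⟧) (isPerfect_shift_DQCoh hP n) ((adj.homEquiv _ _).symm φ)
  refine ⟨m, ?_⟩
  apply (adj.homEquiv _ _).symm.injective
  rw [actQ_tpow_nat, Adjunction.homEquiv_naturality_left_symm, map_tpow, hact, ← actQ_tpow_nat, hm,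
    Adjunction.homEquiv_counit]
  simp

/-- `Rf_*` preserves perfect objects: any `Q`. -/
theorem affSupp_of_pushPerf (f : X ⟶ Y) [QuasiCompact f] [QuasiSeparated f] [CompactSpace Y]
    [QuasiSeparatedSpace Y] (hf : PushPerf f) : AffSupp True f := by
  intro _ h a adj Q _ g hg
  have : QuasiSeparatedSpace X := quasiSeparatedSpace_of_quasiSeparated f
  have : CompactSpace X := QuasiCompact.compactSpace_of_compactSpace f
  refine isZero_restrictD_basicOpen_of_pow f h a adj Q g fun P hP ψ => ?_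
  have htel : TelZero.{u} (actQ g Q) :=
    (telZero_actQ_iff g Q).2 (telZero_actD Q.obj Q.property g hg)
  exact htel.exists_pow (isCompactW_of_isPerfect _ (hf inferInstance P.obj hP)) ψ

/-- `Rf_*` sends perfect objects to pseudo-coherent objects: `Q` bounded below. -/
theorem affSupp_of_pushPC (p : Prop) (hp : ¬ p) (f : X ⟶ Y) [QuasiCompact f] [QuasiSeparated f]
    [CompactSpace Y] [QuasiSeparatedSpace Y] (hf : PushPC f) : AffSupp p f := by
  intro _ h a adj Q hQ g hg
  obtain ⟨c, hc⟩ := hQ.resolve_left hp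
  have : QuasiSeparatedSpace X := quasiSeparatedSpace_of_quasiSeparated f
  have : CompactSpace X := QuasiCompact.compactSpace_of_compactSpace f
  exact isZero_restrictD_basicOpen_of_pow f h a adj Q g fun P hP ψ =>
    exists_pow_of_pseudoCoherent Q c ((DerivedCategory.isGE_iff _ _).1 hc) g hg _
      (fun m => hf inferInstance P.obj hP m) ψ

lemma pushPerf_restrict_of_flat_proper (f : X ⟶ Y) [IsProper f] [Flat f]
    [LocallyOfFinitePresentation f] (W : Y.Opens) : PushPerf (f ∣_ W) := by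
  intro _ K hK
  have : IsProper (f ∣_ W) := inferInstance
  have : Flat (f ∣_ W) := inferInstance
  have : LocallyOfFinitePresentation (f ∣_ W) := inferInstance
  exact S1002.result (f ∣_ W) K hK

/-- **Support lemma.** `Y` quasi-compact quasi-separated, `f` quasi-compact quasi-separated such that
`R(f|_W)_*` preserves perfect objects for all affine open `W` of `Y`.  If `Q|_V = 0` then
`a(Q)|_{f⁻¹V} = 0`. -/
theorem vanOn_preimage_of_pushPerf (f : X ⟶ Y) [QuasiCompact f] [QuasiSeparated f] [CompactSpace Y]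
    [QuasiSeparatedSpace Y] (hf : ∀ W : Y.Opens, IsAffineOpen W → PushPerf (f ∣_ W))
    [DCoh.HasRpush f] (h : Pres f) (a : DCoh.DQCoh Y ⥤ DCoh.DQCoh X) (adj : Rq f h ⊣ a)
    (V : Y.Opens) (Q : DCoh.DQCoh Y) (hQV : vanOn V Q.obj) : vanOn (f ⁻¹ᵁ V) (a.obj Q).obj := by
  refine vanOn_preimage f h a adj True (fun W hW => ?_) V Q (Or.inl trivial) hQV
  have : IsAffine W := hW
  exact affSupp_of_pushPerf (f ∣_ W) (hf W hW)

/-- **Support lemma, bounded below version.** `Y` quasi-compact quasi-separated, `f` quasi-compact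
quasi-separated such that `R(f|_W)_*` sends perfect objects to pseudo-coherent objects for all affine
open `W` of `Y`.  If `Q` is bounded below and `Q|_V = 0` then `a(Q)|_{f⁻¹V} = 0`. -/
theorem vanOn_preimage_of_pushPC (f : X ⟶ Y) [QuasiCompact f] [QuasiSeparated f] [CompactSpace Y]
    [QuasiSeparatedSpace Y] (hf : ∀ W : Y.Opens, IsAffineOpen W → PushPC (f ∣_ W))
    [DCoh.HasRpush f] (h : Pres f) (a : DCoh.DQCoh Y ⥤ DCoh.DQCoh X) (adj : Rq f h ⊣ a)
    (V : Y.Opens) (Q : DCoh.DQCoh Y) (c : ℤ) (hQ : Q.obj.IsGE c) (hQV : vanOn V Q.obj) :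
    vanOn (f ⁻¹ᵁ V) (a.obj Q).obj := by
  refine vanOn_preimage f h a adj False (fun W hW => ?_) V Q (Or.inr ⟨c, hQ⟩) hQV
  have : IsAffine W := hW
  exact affSupp_of_pushPC False id (f ∣_ W) (hf W hW)

end Groth.Agent.Dual.H305.Supp
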