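import Groth.Agent.LoccohB.SuppInd

/-!
# Support of `a(Q)` over a quasi-compact quasi-separated base: Mayer-Vietoris induction

`f : X ⟶ Y` quasi-compact quasi-separated, `Y` quasi-compact quasi-separated, `a` right adjoint of
`Rf_*` on `D_QCoh`.  Let `p` be a proposition; objects `Q` are restricted by `Bd p Q`, i.e. `p` or
`Q` bounded below (`p = True`: no condition; `p = False`: bounded below).

If for every affine open `W` of `Y` the right adjoint of `R(f|_W)_*` has the support property for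
principal opens (`AffSupp p (f ∣_ W)`), then `Q|_V = 0` implies `a(Q)|_{f⁻¹ V} = 0` for every open `V`.
-/

set_option autoImplicit false

universe u

open CategoryTheory CategoryTheory.Limits AlgebraicGeometry Pretriangulated

attribute [local instance] HasDerivedCategory.standard

namespace Groth.Agent.Dual.H305.SuppInd

open PerfA.Restrict LoccohB LoccohB.VanOn LoccohB.LocAdj LoccohB.SuppInd

variable {X Y : Scheme.{u}}

/-- `Q` is bounded below, unless `p`. -/
def Bd (p : Prop) (Q : DCoh.DQCoh Y) : Prop := p ∨ ∃ c : ℤ, Q.obj.IsGE c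

/-- The support property for principal opens. -/
def AffSupp (p : Prop) (f : X ⟶ Y) : Prop :=
  ∀ (_ : DCoh.HasRpush f) (h : Pres f) (a : DCoh.DQCoh Y ⥤ DCoh.DQCoh X) (_ : Rq f h ⊣ a)
    (Q : DCoh.DQCoh Y) (_ : Bd p Q) (g : Γ(Y, ⊤)), vanOn (Y.basicOpen g) Q.obj →
      vanOn (X.basicOpen (f.appTop g)) (a.obj Q).obj

lemma quasiCompact_ι [QuasiSeparatedSpace X] (U : X.Opens) (hU : IsCompact (U : Set X)) :
    QuasiCompact U.ι := by
  have : CompactSpace (U : Scheme.{u}) := isCompact_iff_compactSpace.1 hU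
  have h1 : QuasiCompact (U.ι ≫ Limits.terminal.from X) := inferInstance
  exact QuasiCompact.of_comp U.ι (Limits.terminal.from X)

lemma compactSpace_of_quasiCompact (f : X ⟶ Y) [QuasiCompact f] [CompactSpace Y] :
    CompactSpace X := QuasiCompact.compactSpace_of_compactSpace f

lemma pres (f : X ⟶ Y) [QuasiCompact f] [QuasiSeparated f] [DCoh.HasRpush f] : Pres f :=
  fun K hK => S0998.result f K hK

section Main

variable (f : X ⟶ Y) [QuasiCompact f] [QuasiSeparated f] [CompactSpace Y] [QuasiSeparatedSpace Y]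
  [DCoh.HasRpush f] (h : Pres f)
  (a : DCoh.DQCoh Y ⥤ DCoh.DQCoh X) (adj : Rq f h ⊣ a)

include adj in
omit [CompactSpace Y] in
lemma vanOn_affine (p : Prop) (W : Y.Opens) (hWa : IsAffineOpen W) (hfW : AffSupp p (f ∣_ W))
    (V : Y.Opens) (Q : DCoh.DQCoh W) (hQ : Bd p Q) (hQV : vanOn (W.ι ⁻¹ᵁ V) Q.obj)
    [DCoh.HasRpush W.ι] (hj : Pres W.ι) :
    vanOn (f ⁻¹ᵁ V) (a.obj ((Rq W.ι hj).obj Q)).obj := by
  have hXqs : QuasiSeparatedSpace X := quasiSeparatedSpace_of_quasiSeparated f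
  have := Dcoh.DerSch.hasRpush (f ∣_ W)
  have := Dcoh.DerSch.hasRpush (f ⁻¹ᵁ W).ι
  have : IsAffine W := hWa
  have hWc : CompactSpace (W : Scheme.{u}) := inferInstance
  have hcW : CompactSpace (f ⁻¹ᵁ W : X.Opens).toScheme := compactSpace_of_quasiCompact (f ∣_ W)
  have : QuasiSeparatedSpace (f ⁻¹ᵁ W : X.Opens).toScheme :=
    quasiSeparatedSpace_of_quasiSeparated (f ∣_ W)
  have : QuasiCompact (f ⁻¹ᵁ W).ι := quasiCompact_ι _ (isCompact_iff_compactSpace.2 hcW)
  have hW : Pres (f ∣_ W) := pres _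
  have hj' : Pres (f ⁻¹ᵁ W).ι := pres _
  have hleft : (Rq (f ∣_ W) hW).IsLeftAdjoint := S1766.result _ _ (f ∣_ W) hW
  let aW := (Rq (f ∣_ W) hW).rightAdjoint
  let adjW : Rq (f ∣_ W) hW ⊣ aW := Adjunction.ofIsLeftAdjoint _
  obtain ⟨e⟩ := exists_rightAdjoint_iso f h W hW hj hj' a adj aW adjW
  refine vanOn_of_iso ((ObjectProperty.ι (DCoh.IsQCohD (X := X))).mapIso (e.app Q)).symm ?_
  refine vanOn_Rpush (f ⁻¹ᵁ W).ι (f ⁻¹ᵁ V) _ (vanOn_of_local (fun x hx => ?_))
  have hx' : (f ∣_ W) x ∈ W.ι ⁻¹ᵁ V := by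
    have h1 : W.ι ((f ∣_ W) x) = f ((f ⁻¹ᵁ W).ι x) := congr($(morphismRestrict_ι f W) x)
    change W.ι ((f ∣_ W) x) ∈ V
    rw [h1]
    exact hx
  obtain ⟨g, hg, hxg⟩ := (isAffineOpen_top (W : Scheme.{u})).exists_basicOpen_le
    ⟨_, hx'⟩ trivial
  refine ⟨(f ⁻¹ᵁ W : Scheme.{u}).basicOpen ((f ∣_ W).appTop g), ?_,
    hfW inferInstance hW aW adjW Q hQ g (vanOn_mono hg hQV)⟩
  have h2 : (f ∣_ W) ⁻¹ᵁ (W : Scheme.{u}).basicOpen g =
    (f ⁻¹ᵁ W : Scheme.{u}).basicOpen ((f ∣_ W).appTop g) := Scheme.preimage_basicOpen (f ∣_ W) g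
  rw [← h2]
  exact hxg

include adj in
theorem vanOn_preimage (p : Prop) (hf : ∀ W : Y.Opens, IsAffineOpen W → AffSupp p (f ∣_ W))
    (V : Y.Opens) (Q : DCoh.DQCoh Y) (hQ : Bd p Q) (hQV : vanOn V Q.obj) :
    vanOn (f ⁻¹ᵁ V) (a.obj Q).obj := by
  let P : Y.Opens → Prop := fun U => ∀ (Q : DCoh.DQCoh Y),
    Bd p Q → IsLoc U Q.obj → vanOn V Q.obj → vanOn (f ⁻¹ᵁ V) (a.obj Q).obj
  have hP : P ⊤ := by
    refine compact_open_induction_on (P := P) ⊤ (by simpa using CompactSpace.isCompact_univ) ?_ ?_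
    · intro Q _ hloc _
      have h1 : IsZero Q.obj := (IsZero.iff_id_eq_zero _).2 (hloc _ (vanOn_bot _) _)
      have h2 : IsZero Q := (IsZero.iff_id_eq_zero _).2 (by
        ext
        exact h1.eq_of_src _ _)
      have : a.Additive := adj.right_adjoint_additive
      exact (restrictD _).map_isZero ((ObjectProperty.ι _).map_isZero (a.map_isZero h2))
    · intro S hS W hPS Q hQ hloc hQV
      have := Dcoh.DerSch.hasRpush W.1.ι
      have : QuasiCompact W.1.ι := quasiCompact_ι _ W.2.isCompact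
      have hj : Pres W.1.ι := pres _
      let R := (restQ W.1.ι).obj Q
      let B := (Rq W.1.ι hj).obj R
      let u : Q ⟶ B := (adjQ W.1.ι hj).unit.app Q
      have hu : u.hom = η W.1 Q.obj := by
        have := Adjunction.map_restrictFullyFaithful_unit_app
          (show restrictD W.1.ι ⊣ DCoh.Rpush W.1.ι from Dcoh.DerSch.restrictAdj W.1.ι)
          (DCoh.IsQCohD (X := Y)).fullyFaithfulι (DCoh.IsQCohD (X := W.1)).fullyFaithfulι
          (Iso.refl _) (Iso.refl _) Q (L := restQ W.1.ι) (R := Rq W.1.ι hj)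
        refine this.trans ?_
        simp
      obtain ⟨C, v, w, hT⟩ := distinguished_cocone_triangle₁ u
      obtain ⟨C', β, γ, hC'⟩ := distinguished_cocone_triangle (η W.1 Q.obj)
      -- the image of the triangle in `D(O_Y)`
      let T' := (ObjectProperty.ι (DCoh.IsQCohD (X := Y))).mapTriangle.obj (Triangle.mk v u w)
      have hT' : T' ∈ distTriang (DCoh.D Y) :=
        (ObjectProperty.ι (DCoh.IsQCohD (X := Y))).map_distinguished _ hT
      have hη : IsIso ((restrictD W.1.ι).map T'.mor₂) := by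
        have : T'.mor₂ = η W.1 Q.obj := hu
        rw [this]
        exact isIso_restrictD_η W.1 Q.obj
      have hCW : vanOn W.1 C.obj :=
        (Triangle.isZero₁_iff_isIso₂ _ ((restrictD W.1.ι).map_distinguished T' hT')).2 hη
      have hBV : vanOn V B.obj := vanOn_Rpush W.1.ι V _ (vanOn_restrictD W.1.ι V Q.obj hQV)
      have hCV : vanOn V C.obj := vanOn_ext₁ T' hT' hQV hBV
      have hBloc : IsLoc W.1 B.obj := isLoc_Rpush W.1 _
      have hCloc : IsLoc (S ⊔ W.1) C.obj := isLoc_ext₁ T' hT' hloc (hBloc.mono le_sup_right)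
      have hCloc' : IsLoc S C.obj := isLoc_of_vanOn S W.1 C.obj hCloc hCW
      have hRb : Bd p R := by
        rcases hQ with hp | ⟨c, hc⟩
        · exact Or.inl hp
        · refine Or.inr ⟨c, (DerivedCategory.isGE_iff _ _).2 fun i hi => ?_⟩
          exact ((Scheme.Modules.restrictFunctor W.1.ι).map_isZero
            ((DerivedCategory.isGE_iff _ _).1 hc i hi)).of_iso (HDrestrict W.1.ι Q.obj i)
      have hCb : Bd p C := by
        rcases hQ with hp | ⟨c, hc⟩
        · exact Or.inl hp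
        · refine Or.inr ⟨c, (DerivedCategory.isGE_iff _ _).2 fun i hi => ?_⟩
          have hQc := (DerivedCategory.isGE_iff _ _).1 hc
          have hBge : B.obj.IsGE c := by
            have : R.obj.IsGE c := (DerivedCategory.isGE_iff _ _).2 fun i hi =>
              ((Scheme.Modules.restrictFunctor W.1.ι).map_isZero (hQc i hi)).of_iso
                (HDrestrict W.1.ι Q.obj i)
            exact PerfC.RpushTrunc.isGE_Rpush W.1.ι R.obj c
          exact (DerivedCategory.HomologySequence.exact₁ T' hT' (i - 1) i (by lia)).isZero_X₂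
            ((DerivedCategory.isZero_of_isGE B.obj c (i - 1) (by lia)).eq_of_src _ _)
            ((hQc i hi).eq_of_tgt _ _)
      have h1 : vanOn (f ⁻¹ᵁ V) (a.obj C).obj := hPS C hCb hCloc' hCV
      have h2 : vanOn (f ⁻¹ᵁ V) (a.obj B).obj := vanOn_affine f h a adj p W.1 W.2
        (hf W.1 W.2) V R hRb (vanOn_restrictD W.1.ι V Q.obj hQV) hj
      let _ := Dcoh.DerSch.rpushCommShift f
      have := Dcoh.DerSch.rpush_isTriangulated f
      let _ : a.CommShift ℤ := adj.rightAdjointCommShift ℤ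
      have : adj.CommShift ℤ := adj.commShift_of_leftAdjoint ℤ
      have : a.IsTriangulated := adj.isTriangulated_rightAdjoint
      exact vanOn_ext₂ _ ((a ⋙ ObjectProperty.ι (DCoh.IsQCohD (X := X))).map_distinguished _ hT) h1 h2
  exact hP Q hQ (fun N hN φ => (isZero_of_vanOn_top hN).eq_of_src _ _) hQV

end Main

end Groth.Agent.Dual.H305.SuppInd
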